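import Cfsg.Agent.H411.IFU.TypeA
import Cfsg.Agent.H450.Bs.GenU

/-!
# S5719, `PSU_n(q)`, `q` odd: the order of the stabilizer of a decomposition (helper411)
-/

set_option autoImplicit false
set_option linter.unusedSectionVars false

namespace Cfsg.Agent.H411.IFU

open Matrix Subgroup Module Cfsg
open Cfsg.Agent.LieClassical.HermBasic
open Cfsg.Agent.ClassicalGeometry.PSUAutBasic
open Cfsg.Agent.H91.U (HForm SIso mem_SIso)
open Cfsg.Agent.H450.UF (hform toIso pp mem_pp finrank_pp exists_model)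
open Cfsg.Agent.H450.Bs (res res_apply hform_res exists_decomp)
open Cfsg.Agent.H77.Witt (formB formB_apply)

section

variable {F V : Type*} [Field F] [Fintype F] [AddCommGroup V] [Module F V] [FiniteDimensional F V] {σ : F →+* F}
  {B : V →ₛₗ[σ] V →ₗ[F] F} {q : ℕ}

/-- the orthogonal space of a nondegenerate subspace is nondegenerate -/
theorem nd_pp (hB : HForm B) {W : Submodule F V} (hW : ∀ x ∈ W, (∀ y ∈ W, B x y = 0) → x = 0) :
    ∀ x ∈ pp B W, (∀ y ∈ pp B W, B x y = 0) → x = 0 := by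
  intro x hx hxy
  apply hB.eq_zero
  intro y
  obtain ⟨a, ha, b, hb, rfl⟩ := exists_decomp hB hW y
  rw [map_add, hx a ha, hxy b fun w hw => hB.swap_zero (hb w hw), add_zero]

theorem isCompl_pp (hB : HForm B) {W : Submodule F V} (hW : ∀ x ∈ W, (∀ y ∈ W, B x y = 0) → x = 0) :
    IsCompl W (pp B W) := by
  constructor
  · rw [Submodule.disjoint_def]
    intro x hx hx'
    exact hW x hx fun y hy => hx' y hy
  · rw [codisjoint_iff, eq_top_iff]
    intro v _
    obtain ⟨a, ha, b, hb, rfl⟩ := exists_decomp hB hW v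
    exact Submodule.add_mem_sup ha fun w hw => hB.swap_zero (hb w hw)

/-- the standard model of a decomposition -/
theorem exists_split (hF : Fintype.card F = q ^ 2) (hB : HForm B) {W : Submodule F V}
    (hW : ∀ x ∈ W, (∀ y ∈ W, B x y = 0) → x = 0) {k M : ℕ} (hk : finrank F W = k) (hM : finrank F V = k + M) :
    ∃ e : V ≃ₗ[F] (Fin k → F) × (Fin M → F),
      (∀ v w, B v w = formB hF k (e v).1 (e w).1 + formB hF M (e v).2 (e w).2) ∧ ∀ v, v ∈ W ↔ (e v).2 = 0 := by
  subst hk
  have h1 := finrank_pp hB W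
  have h2 : finrank F (pp B W) = M := by omega
  subst h2
  obtain ⟨φ, hφ⟩ := exists_model hF (hform_res hB hW)
  obtain ⟨ψ, hψ⟩ := exists_model hF (hform_res hB (nd_pp hB hW))
  have hc := isCompl_pp hB hW
  refine ⟨(Submodule.prodEquivOfIsCompl W (pp B W) hc).symm.trans (LinearEquiv.prodCongr φ ψ), ?_, ?_⟩
  · intro v w
    obtain ⟨⟨a, b⟩, rfl⟩ := (Submodule.prodEquivOfIsCompl W (pp B W) hc).surjective v
    obtain ⟨⟨c, d⟩, rfl⟩ := (Submodule.prodEquivOfIsCompl W (pp B W) hc).surjective w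
    rw [LinearEquiv.trans_apply, LinearEquiv.trans_apply, LinearEquiv.symm_apply_apply, LinearEquiv.symm_apply_apply]
    rw [Submodule.coe_prodEquivOfIsCompl', Submodule.coe_prodEquivOfIsCompl', formB_apply, formB_apply]
    show B ((a : V) + b) ((c : V) + d) = hermForm _ F q (φ c) (φ a) + hermForm _ F q (ψ d) (ψ b)
    rw [← hφ, ← hψ, res_apply, res_apply, map_add, map_add, LinearMap.add_apply, LinearMap.add_apply,
      hB.swap_zero (d.2 a a.2), b.2 c c.2]
    ring
  · intro v
    obtain ⟨⟨a, b⟩, rfl⟩ := (Submodule.prodEquivOfIsCompl W (pp B W) hc).surjective v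
    rw [LinearEquiv.trans_apply, LinearEquiv.symm_apply_apply]
    show _ ↔ ψ b = 0
    rw [Submodule.coe_prodEquivOfIsCompl', LinearEquiv.map_eq_zero_iff]
    constructor
    · intro h
      have h3 : (b : V) ∈ W := by
        have := W.sub_mem h a.2
        rwa [add_sub_cancel_left] at this
      exact Subtype.ext (hW _ h3 fun y hy => b.2 y hy)
    · intro h
      show (a : V) + b ∈ W
      rw [h, Submodule.coe_zero, add_zero]
      exact a.2

/-- **the order of the stabilizer of a decomposition** -/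
theorem card_D_ge (hF : Fintype.card F = q ^ 2) (hB : HForm B) {W : Submodule F V}
    (hW : ∀ x ∈ W, (∀ y ∈ W, B x y = 0) → x = 0) {k M : ℕ} (hk : finrank F W = k) (hM : finrank F V = k + M)
    {D : Subgroup (SIso B)} [Finite D]
    (hD : ∀ (g : SIso B) (h : ∀ v ∈ W, g.1 v ∈ W), (∀ v, (∀ w ∈ W, B v w = 0) → ∀ w ∈ W, B (g.1 v) w = 0) →
      LinearMap.det ((g.1 : V →ₗ[F] V).restrict h) = 1 → g ∈ D) :
    Nat.card (SU k F q) * Nat.card (SU M F q) ≤ Nat.card D := by
  obtain ⟨e, he, heW⟩ := exists_split hF hB hW hk hM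
  let f0 : SU k F q × SU M F q → (V ≃ₗ[F] V) := fun p =>
    (e.trans (LinearEquiv.prodCongr (toIso hF p.1).1 (toIso hF p.2).1)).trans e.symm
  have hf0 : ∀ p v, e (f0 p v) = ((toIso hF p.1).1 (e v).1, (toIso hF p.2).1 (e v).2) := by
    intro p v
    show e (e.symm _) = _
    rw [LinearEquiv.apply_symm_apply]
    rfl
  have hdet : ∀ p, LinearEquiv.det (f0 p) = 1 := by
    intro p
    apply Units.ext
    rw [LinearEquiv.coe_det, Units.val_one]
    have h1 : ((f0 p : V ≃ₗ[F] V) : V →ₗ[F] V) = (e.symm : _ →ₗ[F] V) ∘ₗ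
        (LinearMap.prodMap ((toIso hF p.1).1 : (Fin k → F) →ₗ[F] (Fin k → F))
          ((toIso hF p.2).1 : (Fin M → F) →ₗ[F] (Fin M → F))) ∘ₗ ((e.symm.symm : V ≃ₗ[F] _) : V →ₗ[F] _) := by
      ext v
      rfl
    have h2 : ∀ (m : ℕ) (x : SIso (formB hF m)), LinearMap.det (x.1 : (Fin m → F) →ₗ[F] (Fin m → F)) = 1 := by
      intro m x
      rw [← LinearEquiv.coe_det, x.2.1, Units.val_one]
    rw [h1, LinearMap.det_conj, LinearMap.det_prodMap, h2, h2, one_mul]
  let f : SU k F q × SU M F q → SIso B := fun p => ⟨f0 p, hdet p, fun x y => by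
    rw [he, he, hf0, hf0, (toIso hF p.1).2.2, (toIso hF p.2).2.2]⟩
  have hf : ∀ p v, e ((f p).1 v) = ((toIso hF p.1).1 (e v).1, (toIso hF p.2).1 (e v).2) := hf0
  have hfW : ∀ p, ∀ v ∈ W, (f p).1 v ∈ W := by
    intro p v hv
    rw [heW] at hv ⊢
    rw [hf, hv, map_zero]
  have hfD : ∀ p, f p ∈ D := by
    intro p
    refine hD (f p) (hfW p) ?_ ?_
    · intro v hv w hw
      have h1 : (f p).1 ((f p).1⁻¹ w) = w := (f p).1.apply_symm_apply w
      have h2 : (f p).1⁻¹ w ∈ W := by
        rw [heW]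
        have h3 := hf p ((f p).1⁻¹ w)
        rw [h1] at h3
        have h4 := (heW w).1 hw
        rw [h3] at h4
        exact ((toIso hF p.2).1.map_eq_zero_iff).1 h4
      rw [← h1, (f p).2.2]
      exact hv _ h2
    · have hb : Function.Bijective ((LinearMap.fst F (Fin k → F) (Fin M → F) ∘ₗ (e : V →ₗ[F] _)) ∘ₗ W.subtype) := by
        constructor
        · rw [← LinearMap.ker_eq_bot, LinearMap.ker_eq_bot']
          intro v hv
          have h1 : (e v).1 = 0 := hv
          have h2 : (e v).2 = 0 := (heW _).1 v.2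
          apply Subtype.ext
          apply e.injective
          rw [Submodule.coe_zero, map_zero]
          exact Prod.ext h1 h2
        · intro x
          refine ⟨⟨e.symm (x, 0), (heW _).2 (by rw [LinearEquiv.apply_symm_apply])⟩, ?_⟩
          show (e (e.symm (x, 0))).1 = x
          rw [LinearEquiv.apply_symm_apply]
      let eW : W ≃ₗ[F] (Fin k → F) := LinearEquiv.ofBijective _ hb
      have heW1 : ∀ v : W, eW v = (e v).1 := fun v => rfl
      have h1 : ((f p).1 : V →ₗ[F] V).restrict (hfW p) = (eW.symm : (Fin k → F) →ₗ[F] W) ∘ₗ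
          ((toIso hF p.1).1 : (Fin k → F) →ₗ[F] (Fin k → F)) ∘ₗ ((eW.symm.symm : W ≃ₗ[F] _) : W →ₗ[F] _) := by
        apply LinearMap.ext
        intro v
        apply eW.injective
        show eW _ = eW (eW.symm ((toIso hF p.1).1 (eW v)))
        rw [LinearEquiv.apply_symm_apply, heW1, heW1]
        show (e ((f p).1 v)).1 = _
        rw [hf]
      rw [h1, LinearMap.det_conj, ← LinearEquiv.coe_det, (toIso hF p.1).2.1, Units.val_one]
  have hinj : Function.Injective (fun p => (⟨f p, hfD p⟩ : D)) := by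
    intro p p' hpp
    have h1 : f p = f p' := congrArg Subtype.val hpp
    have h2 : ∀ x y, (toIso hF p.1).1 x = (toIso hF p'.1).1 x ∧ (toIso hF p.2).1 y = (toIso hF p'.2).1 y := by
      intro x y
      have h3 := hf p (e.symm (x, y))
      rw [h1, hf p', LinearEquiv.apply_symm_apply] at h3
      exact ⟨(congrArg Prod.fst h3).symm, (congrArg Prod.snd h3).symm⟩
    apply Prod.ext
    · apply (toIso (n := k) hF).injective
      exact Subtype.ext (LinearEquiv.ext fun x => (h2 x 0).1)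
    · apply (toIso (n := M) hF).injective
      exact Subtype.ext (LinearEquiv.ext fun y => (h2 0 y).2)
  have h1 := Nat.card_le_card_of_injective _ hinj
  rwa [Nat.card_prod] at h1

theorem card_D (hF : Fintype.card F = q ^ 2) (hB : HForm B) {W : Submodule F V}
    (hW : ∀ x ∈ W, (∀ y ∈ W, B x y = 0) → x = 0) {k M : ℕ} (hk : finrank F W = k) (hM : finrank F V = k + M)
    {D : Subgroup (SIso B)} [Finite D]
    (hD : ∀ (g : SIso B) (h : ∀ v ∈ W, g.1 v ∈ W), (∀ v, (∀ w ∈ W, B v w = 0) → ∀ w ∈ W, B (g.1 v) w = 0) →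
      LinearMap.det ((g.1 : V →ₗ[F] V).restrict h) = 1 → g ∈ D) (hk1 : 1 ≤ k) (hM1 : 1 ≤ M) :
    q ^ (k ^ 2 + M ^ 2) ≤ (q + 1) ^ 2 * Nat.card D := by
  have h1 := card_D_ge hF hB hW hk hM hD
  have h2 := Nat.mul_le_mul (le_card_SU (n := k) hF hk1) (le_card_SU (n := M) hF hM1)
  calc q ^ (k ^ 2 + M ^ 2) = q ^ (k ^ 2) * q ^ (M ^ 2) := pow_add _ _ _
    _ ≤ ((q + 1) * Nat.card (SU k F q)) * ((q + 1) * Nat.card (SU M F q)) := h2
    _ = (q + 1) ^ 2 * (Nat.card (SU k F q) * Nat.card (SU M F q)) := by ring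
    _ ≤ (q + 1) ^ 2 * Nat.card D := Nat.mul_le_mul_left _ h1

end

end Cfsg.Agent.H411.IFU
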