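import Cfsg.Agent.H838.IF.Defs
import Cfsg.Agent.H450.UF.Count

/-!
# S5719, `PSU_4(q)`: W1b `cls_pt`, W1c `cls_ti` (helper411)

Numbers of conjugates of elements which are scalar on a nondegenerate point and its orthogonal space, or on two
complementary totally isotropic planes.
-/

set_option autoImplicit false
set_option linter.unusedSectionVars false

namespace Cfsg.Agent.H411.IFU

open Module Subgroup Cfsg Cfsg.Agent.H91.U Cfsg.Agent.H450.UF Cfsg.Agent.H450.Bs Cfsg.Agent.H209.Fxy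
open Cfsg.Agent.LieClassical.HermBasic
open Cfsg.Agent.H838.IF (cls)
open Cfsg.Agent.H950 (isoNum)
open scoped LinearAlgebra.Projectivization

section

variable {F V : Type*} [Field F] [Fintype F] [AddCommGroup V] [Module F V] [FiniteDimensional F V] {σ : F →+* F}
  {B : V →ₛₗ[σ] V →ₗ[F] F} {q : ℕ}

/-- **W1b** -/
theorem cls_pt (hB : HForm B) (hF : Fintype.card F = q ^ 2) (hV : finrank F V = 4) {v : V} (hv : B v v ≠ 0)
    {t : V ≃ₗ[F] V} {a b : F} (h1 : t v = a • v) (h2 : ∀ u, B v u = 0 → t u = b • u) :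
    cls B t ≤ (q ^ 4 + 1) * (q ^ 2 + 1) := by
  classical
  have hfV : Finite V := Module.finite_of_finite F
  have hv0 : v ≠ 0 := by
    rintro rfl
    rw [map_zero] at hv
    exact hv rfl
  have hcard : Nat.card (ℙ F V) = (q ^ 4 + 1) * (q ^ 2 + 1) := by
    rw [Projectivization.card_of_finrank F V hV, Nat.card_eq_fintype_card, hF]
    simp only [Finset.sum_range_succ, Finset.sum_range_zero]
    ring
  have key : ∀ g g' : V ≃ₗ[F] V, g ∈ SIso B → g' ∈ SIso B → ∀ c : F, c • g' v = g v →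
      g * t * g⁻¹ = g' * t * g'⁻¹ := by
    intro g g' hg hg' c hc
    have hc0 : c ≠ 0 := by
      rintro rfl
      rw [zero_smul] at hc
      exact hv0 ((g.map_eq_zero_iff).1 hc.symm)
    apply LinearEquiv.ext
    intro x
    show g (t (g⁻¹ x)) = g' (t (g'⁻¹ x))
    obtain ⟨y, rfl⟩ : ∃ y, g y = x := ⟨g⁻¹ x, g.apply_symm_apply x⟩
    have e1 : g⁻¹ (g y) = y := g.symm_apply_apply y
    rw [e1]
    obtain ⟨α, u, hu', rfl⟩ : ∃ (α : F) (u : V), B v u = 0 ∧ y = α • v + u := by
      refine ⟨B v y / B v v, y - (B v y / B v v) • v, ?_, by abel⟩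
      rw [map_sub, smul_right, div_mul_cancel₀ _ hv, sub_self]
    have e2 : g'⁻¹ (g v) = c • v := by
      rw [← hc, map_smul]
      congr 1
      exact g'.symm_apply_apply v
    have e3 : g' (g'⁻¹ (g u)) = g u := g'.apply_symm_apply _
    have e4 : B v (g'⁻¹ (g u)) = 0 := by
      have h3 : B (g v) (g u) = 0 := by rw [hg.2, hu']
      rw [← hc, smul_left, ← e3, hg'.2] at h3
      exact (mul_eq_zero.1 h3).resolve_left (sig_ne_zero hc0)
    rw [map_add g, map_add g'⁻¹, map_smul g, map_smul g'⁻¹, e2, map_add t, map_smul t, h1, h2 u hu', map_add t,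
      map_smul t, map_smul t, h1, h2 _ e4, map_add g, map_add g', map_smul, map_smul, map_smul, map_smul, map_smul,
      map_smul, map_smul, e3, ← hc, smul_comm c a, smul_smul]
  have hfc : Finite (ℙ F V) := inferInstance
  unfold cls
  rw [← hcard, ← Nat.card_coe_set_eq]
  choose g hg hgs using fun s : {s : V ≃ₗ[F] V | ∃ g ∈ SIso B, s = g * t * g⁻¹} => s.2
  refine Nat.card_le_card_of_injective (fun s => Projectivization.mk F (g s v) (by
    rw [Ne, LinearEquiv.map_eq_zero_iff]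
    exact hv0)) ?_
  intro s s' hss
  have h3 := (Projectivization.mk_eq_mk_iff' F _ _ _ _).1 hss
  obtain ⟨c, hc⟩ := h3
  apply Subtype.ext
  rw [hgs s, hgs s']
  exact key _ _ (hg s) (hg s') c hc

/-- the number of totally isotropic planes -/
theorem card_ti (hB : HForm B) (hF : Fintype.card F = q ^ 2) (hV : finrank F V = 4) :
    Nat.card {U : Submodule F V // TI B U ∧ finrank F U = 2} = (q + 1) * (q ^ 3 + 1) := by
  classical
  obtain ⟨φ, hφ⟩ := exists_model hF hB
  have h1 : Nat.card {U : Submodule F V // TI B U ∧ finrank F U = 2} =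
      Nat.card {W : Submodule F (Fin (finrank F V) → F) // finrank F W = 2 ∧
        (∀ u ∈ W, ∀ v ∈ W, hermForm (finrank F V) F q u v = 0)} := by
    refine Nat.card_congr (Equiv.subtypeEquiv (Submodule.orderIsoMapComap φ).toEquiv fun U => ?_)
    have h3 : (Submodule.orderIsoMapComap φ).toEquiv U = U.map (φ : V →ₗ[F] _) := rfl
    rw [h3, LinearEquiv.finrank_map_eq φ U, and_comm]
    refine and_congr Iff.rfl ?_
    constructor
    · rintro h _ ⟨x, hx, rfl⟩ _ ⟨y, hy, rfl⟩
      exact (hφ y x).symm.trans (h y hy x hx)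
    · intro h x hx y hy
      rw [hφ]
      exact h _ ⟨y, hy, rfl⟩ _ ⟨x, hx, rfl⟩
  have h2 := Cfsg.Agent.H950.card_ti_eq (n := finrank F V) hF (k := 2) (by omega)
  rw [← h1, hV] at h2
  simp only [Finset.prod_range_succ, Finset.prod_range_zero, one_mul] at h2
  have hq := two_le hF
  have e1 : isoNum q 4 = (q ^ 4 - 1) * (q ^ 3 + 1) := by
    unfold isoNum
    rw [if_pos (by decide)]
  have e2 : isoNum q 2 = (q ^ 2 - 1) * (q + 1) := by
    unfold isoNum
    rw [if_pos (by decide)]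
    norm_num
  rw [Nat.sub_zero, show 2 - 1 = 1 from rfl, pow_one, ← pow_mul, mul_zero, Nat.sub_zero, e1,
    e2] at h2
  have h4 : 0 < (q ^ 4 - 1) * (q ^ 2 - 1) := by
    have h5 : 1 < q ^ 2 := Nat.one_lt_pow (by norm_num) (by omega)
    have h6 : 1 < q ^ 4 := Nat.one_lt_pow (by norm_num) (by omega)
    exact Nat.mul_pos (by omega) (by omega)
  refine Nat.eq_of_mul_eq_mul_right h4 ?_
  rw [show 2 * 2 = 4 from rfl] at h2
  rw [h2]
  ring

/-- **W1c** -/
theorem cls_ti (hB : HForm B) (hF : Fintype.card F = q ^ 2) (hV : finrank F V = 4) {U U' : Submodule F V}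
    (hU : TI B U) (hU' : TI B U') (h2 : finrank F U = 2) (h2' : finrank F U' = 2) (hc : IsCompl U U')
    {t : V ≃ₗ[F] V} {a b : F} (h1 : ∀ u ∈ U, t u = a • u) (h1' : ∀ u ∈ U', t u = b • u) :
    cls B t ≤ ((q + 1) * (q ^ 3 + 1)) ^ 2 := by
  classical
  have hfV : Finite V := Module.finite_of_finite F
  have key : ∀ g g' : V ≃ₗ[F] V, U.map (g : V →ₗ[F] V) = U.map (g' : V →ₗ[F] V) →
      U'.map (g : V →ₗ[F] V) = U'.map (g' : V →ₗ[F] V) → g * t * g⁻¹ = g' * t * g'⁻¹ := by
    intro g g' hg hg'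
    apply LinearEquiv.ext
    intro x
    show g (t (g⁻¹ x)) = g' (t (g'⁻¹ x))
    obtain ⟨y, rfl⟩ : ∃ y, g y = x := ⟨g⁻¹ x, g.apply_symm_apply x⟩
    have e1 : g⁻¹ (g y) = y := g.symm_apply_apply y
    rw [e1]
    obtain ⟨u, hu, u', hu', rfl⟩ : ∃ u ∈ U, ∃ u' ∈ U', u + u' = y := by
      have h3 : y ∈ U ⊔ U' := by rw [hc.sup_eq_top]; exact Submodule.mem_top
      exact Submodule.mem_sup.1 h3
    obtain ⟨w, hw, hwu⟩ : g u ∈ U.map (g' : V →ₗ[F] V) := by rw [← hg]; exact ⟨u, hu, rfl⟩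
    obtain ⟨w', hw', hwu'⟩ : g u' ∈ U'.map (g' : V →ₗ[F] V) := by rw [← hg']; exact ⟨u', hu', rfl⟩
    have hwu1 : g' w = g u := hwu
    have hwu1' : g' w' = g u' := hwu'
    have e2 : g'⁻¹ (g u) = w := by rw [← hwu1]; exact g'.symm_apply_apply w
    have e2' : g'⁻¹ (g u') = w' := by rw [← hwu1']; exact g'.symm_apply_apply w'
    rw [map_add g, map_add g'⁻¹, e2, e2', map_add t, map_add t, h1 u hu, h1' u' hu', h1 w hw, h1' w' hw', map_add g,
      map_add g', map_smul, map_smul, map_smul, map_smul, hwu1, hwu1']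
  have hTI : ∀ (W : Submodule F V), TI B W → ∀ g ∈ SIso B, TI B (W.map (g : V →ₗ[F] V)) := by
    rintro W hW g hg _ ⟨x, hx, rfl⟩ _ ⟨y, hy, rfl⟩
    show B (g x) (g y) = 0
    rw [hg.2]
    exact hW x hx y hy
  have hfr : ∀ (W : Submodule F V) (g : V ≃ₗ[F] V), finrank F (W.map (g : V →ₗ[F] V)) = finrank F W :=
    fun W g => LinearEquiv.finrank_map_eq g W
  have hfS : Finite (Submodule F V) := inferInstance
  unfold cls
  rw [← card_ti hB hF hV, ← Nat.card_coe_set_eq, pow_two, ← Nat.card_prod]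
  choose g hg hgs using fun s : {s : V ≃ₗ[F] V | ∃ g ∈ SIso B, s = g * t * g⁻¹} => s.2
  refine Nat.card_le_card_of_injective (fun s => ((⟨U.map (g s : V →ₗ[F] V), hTI U hU _ (hg s), by
    rw [hfr, h2]⟩, ⟨U'.map (g s : V →ₗ[F] V), hTI U' hU' _ (hg s), by rw [hfr, h2']⟩) :
      {U : Submodule F V // TI B U ∧ finrank F U = 2} × {U : Submodule F V // TI B U ∧ finrank F U = 2})) ?_
  intro s s' hss
  apply Subtype.ext
  rw [hgs s, hgs s']
  exact key _ _ (congrArg (fun p => p.1.1) hss) (congrArg (fun p => p.2.1) hss)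

end

end Cfsg.Agent.H411.IFU
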