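import Cfsg.Agent.H209.IF.Kill
import Cfsg.Agent.H847.IF.Lift
import Cfsg.Agent.H189.SN.Sec
import Cfsg.Agent.H847.Bs.Defs2

/-!
# S5719: the row `PSU_n(q)`, `q` odd, `n ≥ 8`: definitions and statements of the pieces (helper411)

Model: `SU m F q` (`act`, `mkSU`), orthonormal systems `ON q b`, the embeddings `Im b`, `phi hF hb : SU m F q →* SU n F q`
(H189/SN/Sec).
-/

set_option autoImplicit false

namespace Cfsg.Agent.H411.IFU

open Matrix Subgroup Module Cfsg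
open Cfsg.Agent.LieClassical.HermBasic Cfsg.Agent.LieClassical.HermSiegel
open Cfsg.Agent.ClassicalGeometry.PSUAutBasic Cfsg.Agent.ClassicalGeometry.HermOrtho
open Cfsg.Agent.H189.SN (ON Im phi)
open Cfsg.Agent.H847.Bs (slV)

/-- `z` is fundamental: `-1` on the nondegenerate plane spanned by `b`, `1` on its orthogonal complement -/
def FdOf {F : Type*} [Field F] {m q : ℕ} (b : Fin 2 → (Fin m → F)) (z : SU m F q) : Prop :=
  (∀ c, act z (Im b *ᵥ c) = -(Im b *ᵥ c)) ∧ ∀ v, (∀ i, hermForm m F q v (b i) = 0) → act z v = v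

/-- fundamental elements of `SU m F q` -/
def Fd {F : Type*} [Field F] {m q : ℕ} (z : SU m F q) : Prop := ∃ b : Fin 2 → (Fin m → F), ON q b ∧ FdOf b z

/-- **(PHI)** for `SU_m(q)`, relative form (helper27) -/
def PhiSU (F : Type) [Field F] [Fintype F] (q : ℕ) : Prop :=
  ∀ (m : ℕ) (Γ : Type) [Group Γ] [Finite Γ] (Z : Set Γ), (∀ z ∈ Z, z * z = 1) →
    (∀ g, ∀ z ∈ Z, g * z * g⁻¹ ∈ Z) → ∀ c : ℕ, (∀ Y : Subgroup Γ, (∀ z ∈ Z, z ∉ Y) → c ≤ Y.index) →
    ∀ X : Subgroup (SU m F q × Γ), (∀ z : SU m F q, Fd z → ((z, 1) : SU m F q × Γ) ∉ X) →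
      (∀ z ∈ Z, ((1, z) : SU m F q × Γ) ∉ X) → q ^ (m ^ 2 / 4) * c ≤ X.index

/-- the second type of involutions (helper848): `g` with square `μ²`, `μ ^ (q+1) = -1`; then `n = 2 r` and a group
`SL_r(q²)` commutes with `g`. -/
def TypeB (F : Type) [Field F] [Fintype F] (q n : ℕ) : Prop :=
  ∀ (g : SU n F q) (μ : F), μ ^ (q + 1) = -1 → (∀ v, act g (act g v) = (μ * μ) • v) →
    ∃ r : ℕ, n = 2 * r ∧ ∃ f : slV F (Fin r → F) →* SU n F q, Function.Injective f ∧ (∀ x, f x * g = g * f x)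

end Cfsg.Agent.H411.IFU
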