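import Cfsg.Agent.H411.IFU.Row
import Cfsg.Agent.H27.IF.PhiDec
import Cfsg.Agent.H346.IF.SUFin
import Cfsg.Agent.S0205

/-!
# S5719: the row `PSU_n(q)`, `q` odd, `n ≥ 5` (helper411, helper27, helper346, helper353, helper848)
-/

set_option autoImplicit false
set_option linter.unusedSectionVars false

namespace Cfsg.Agent.H411.IFU

open Matrix Subgroup Module Cfsg
open Cfsg.Agent.LieClassical.HermBasic Cfsg.Agent.LieClassical.HermSiegel
open Cfsg.Agent.H91.U (HForm SIso mem_SIso)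
open Cfsg.Agent.H450.UF (hform toIso toIso_apply pp mem_pp)
open Cfsg.Agent.H77.Witt (formB formB_apply)
open Cfsg.Agent.H27.IF (DW phi_dec card_DW e12_W e12_pp)
open Cfsg.Agent.H209.Fxy

section

variable {F : Type} [Field F] [Fintype F] {q n : ℕ}

theorem phiDec (hFT : ∀ (D : Type) [Group D] [Finite D], Odd (Nat.card D) → Group.IsSolvable D)
    (hF : Fintype.card F = q ^ 2) (hodd : Odd q) : PhiDec F q n hF := by
  intro W hW k M hk hn hk1 hM1 X hX
  have hB := hform hF n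
  have hfr : finrank F (Fin n → F) = k + M := by rw [finrank_fin_fun, hn]
  refine ⟨DW hB hW, ?_, ?_, ?_, ?_⟩
  · rintro _ ⟨p, rfl⟩ v hv
    rw [e12_W hB hW p hv]
    exact (p.1.1 ⟨v, hv⟩).2
  · rintro _ ⟨p, rfl⟩ v hv
    have hv' : v ∈ pp (formB hF n) W := hv
    rw [e12_pp hB hW p hv']
    exact (p.2.1 ⟨v, hv'⟩).2
  · rw [card_DW hF hB hW hk hfr]
    have h2 := Nat.mul_le_mul (le_card_SU (n := k) hF hk1) (le_card_SU (n := M) hF hM1)
    calc q ^ (k ^ 2 + M ^ 2) = q ^ (k ^ 2) * q ^ (M ^ 2) := pow_add _ _ _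
      _ ≤ ((q + 1) * Nat.card (SU k F q)) * ((q + 1) * Nat.card (SU M F q)) := h2
      _ = (q + 1) ^ 2 * (Nat.card (SU k F q) * Nat.card (SU M F q)) := by ring
  · exact phi_dec hF (two_ne_zero_of_odd hF hodd) hFT hB hW X (fun z hz hzf => hX z hz hzf) hk hfr

/-- **The row `PSU_n(q)`, `q` odd, `n ≥ 5`.** -/
theorem psu_odd (F : Type) [Field F] [Fintype F] (n q : ℕ) (hF : Fintype.card F = q ^ 2) (hodd : Odd q) (hn : 5 ≤ n)
    (hs : IsSimpleGroup (PSU n F q)) : KillE (PSU n F q) := by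
  have hFT : ∀ (D : Type) [Group D] [Finite D], Odd (Nat.card D) → Group.IsSolvable D := fun D _ _ h =>
    Cfsg.Agent.S0205.result h
  exact psu_odd_of hFT hF hodd hn hs (phiDec hFT hF hodd) fun A Γ h z hz hzA =>
    Cfsg.Agent.H346.SUFin.final_su hF hodd hn h hz hzA

end

end Cfsg.Agent.H411.IFU
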