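import Mathlib

/-!
# S5719 (StepC of helper747): numbers of involutions of subgroups (helper411)

* `class_bound` : `|A| ≤ c |s^A|` if `|C(s)| ≤ c`;
* `one_count`, `odd_count`.
-/

set_option autoImplicit false

namespace Cfsg.Agent.H411.IFU

open Subgroup

variable {C : Type*} [Group C] [Finite C] {A : Subgroup C}

/-- the `A`-class of `s` -/
def cl (A : Subgroup C) (s : C) : Set C := {t | ∃ a ∈ A, t = a * s * a⁻¹}

theorem class_bound {s : C} {c : ℕ} (k : Nat.card (centralizer ({s} : Set C)) ≤ c) :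
    Nat.card A ≤ c * (cl A s).ncard := by
  classical
  have hmem : ∀ a : A, a.1 * s * a.1⁻¹ ∈ cl A s := fun a => ⟨a.1, a.2, rfl⟩
  choose g hg hgs using fun t : cl A s => t.2
  have h1 : Function.Injective (fun a : A => ((⟨(g ⟨_, hmem a⟩)⁻¹ * a.1, by
      rw [mem_centralizer_singleton_iff]
      have h2 := hgs ⟨_, hmem a⟩
      have h3 : a.1 * s * a.1⁻¹ = g ⟨_, hmem a⟩ * s * (g ⟨_, hmem a⟩)⁻¹ := h2
      calc (g ⟨_, hmem a⟩)⁻¹ * a.1 * s = (g ⟨_, hmem a⟩)⁻¹ * (a.1 * s * a.1⁻¹) * a.1 := by group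
        _ = (g ⟨_, hmem a⟩)⁻¹ * (g ⟨_, hmem a⟩ * s * (g ⟨_, hmem a⟩)⁻¹) * a.1 := by rw [← h3]
        _ = s * ((g ⟨_, hmem a⟩)⁻¹ * a.1) := by group⟩, ⟨_, hmem a⟩) :
      (centralizer ({s} : Set C)) × (cl A s))) := by
    intro a b hab
    have h2 : a.1 * s * a.1⁻¹ = b.1 * s * b.1⁻¹ := congrArg (fun p => (p.2 : C)) hab
    have h3 : (g ⟨_, hmem a⟩)⁻¹ * a.1 = (g ⟨_, hmem b⟩)⁻¹ * b.1 := congrArg (fun p => (p.1 : C)) hab
    have h4 : (⟨_, hmem a⟩ : cl A s) = ⟨_, hmem b⟩ := Subtype.ext h2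
    rw [h4] at h3
    exact Subtype.ext (mul_left_cancel h3)
  have h2 := Nat.card_le_card_of_injective _ h1
  rw [Nat.card_prod, Nat.card_coe_set_eq] at h2
  exact h2.trans (Nat.mul_le_mul_right _ k)

theorem cl_order {s : C} (o : orderOf s = 2) (hs : s ∈ A) : cl A s ⊆ {t : C | t ∈ A ∧ orderOf t = 2} := by
  rintro _ ⟨a, ha, rfl⟩
  refine ⟨mul_mem (mul_mem ha hs) (inv_mem ha), ?_⟩
  rw [← o]
  exact orderOf_injective (MulAut.conj a).toMonoidHom (MulAut.conj a).injective s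

theorem not_mem_cl {s z : C} (hz : ∀ g, g * z = z * g) (n : s ≠ z) : z ∉ cl A s := by
  rintro ⟨a, -, h⟩
  apply n
  have h1 : s = a⁻¹ * z * a := by rw [h]; group
  rw [h1, hz a⁻¹, mul_assoc, inv_mul_cancel, mul_one]

theorem one_count {z s : C} (hz : ∀ g, g * z = z * g) (oz : orderOf z = 2) (hzA : z ∈ A) (o : orderOf s = 2)
    (hs : s ∈ A) (n : s ≠ z) {c : ℕ} (k : Nat.card (centralizer ({s} : Set C)) ≤ c) :
    c + Nat.card A ≤ c * {t : C | t ∈ A ∧ orderOf t = 2}.ncard := by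
  have h1 := class_bound (A := A) k
  have h2 : 1 + (cl A s).ncard ≤ {t : C | t ∈ A ∧ orderOf t = 2}.ncard := by
    have h3 : insert z (cl A s) ⊆ {t : C | t ∈ A ∧ orderOf t = 2} :=
      Set.insert_subset ⟨hzA, oz⟩ (cl_order o hs)
    have h4 := Set.ncard_le_ncard h3 (Set.toFinite _)
    rw [Set.ncard_insert_of_notMem (not_mem_cl hz n) (Set.toFinite _)] at h4
    omega
  calc c + Nat.card A ≤ c + c * (cl A s).ncard := Nat.add_le_add_left h1 _
    _ = c * (1 + (cl A s).ncard) := by ring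
    _ ≤ _ := Nat.mul_le_mul_left _ h2

/-- an involution fixes a coset of a subgroup of odd index -/
theorem exists_conj_mem (hj : Odd A.index) {s : C} (o : orderOf s = 2) : ∃ g : C, g⁻¹ * s * g ∈ A := by
  classical
  have : Fintype (C ⧸ A) := Fintype.ofFinite _
  have hc : ¬ 2 ∣ Fintype.card (C ⧸ A) := by
    rw [← Nat.card_eq_fintype_card]
    exact fun h => (Nat.not_even_iff_odd.2 hj) (even_iff_two_dvd.2 h)
  have : Fact (Nat.Prime 2) := ⟨Nat.prime_two⟩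
  have hs : (MulAction.toPerm s : Equiv.Perm (C ⧸ A)) ^ 2 ^ 1 = 1 := by
    have h1 : (MulAction.toPermHom C (C ⧸ A) s) ^ 2 = 1 := by
      rw [← map_pow, ← o, pow_orderOf_eq_one, map_one]
    rw [pow_one]
    exact h1
  obtain ⟨x, hx⟩ := Equiv.Perm.exists_fixed_point_of_prime hc hs
  obtain ⟨g, rfl⟩ := QuotientGroup.mk_surjective x
  have h1 : (QuotientGroup.mk (s * g) : C ⧸ A) = QuotientGroup.mk g := hx
  refine ⟨g, ?_⟩
  have h2 := QuotientGroup.eq.1 h1.symm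
  rwa [← mul_assoc] at h2

theorem card_centralizer_conj (g s : C) :
    Nat.card (centralizer ({g⁻¹ * s * g} : Set C)) = Nat.card (centralizer ({s} : Set C)) := by
  refine Nat.card_congr
    { toFun := fun x => ⟨g * x.1 * g⁻¹, ?_⟩
      invFun := fun x => ⟨g⁻¹ * x.1 * g, ?_⟩
      left_inv := fun x => Subtype.ext (by show g⁻¹ * (g * x.1 * g⁻¹) * g = x.1; group)
      right_inv := fun x => Subtype.ext (by show g * (g⁻¹ * x.1 * g) * g⁻¹ = x.1; group) }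
  · have h := mem_centralizer_singleton_iff.1 x.2
    rw [mem_centralizer_singleton_iff]
    calc g * x.1 * g⁻¹ * s = g * (x.1 * (g⁻¹ * s * g)) * g⁻¹ := by group
      _ = g * (g⁻¹ * s * g * x.1) * g⁻¹ := by rw [h]
      _ = s * (g * x.1 * g⁻¹) := by group
  · have h := mem_centralizer_singleton_iff.1 x.2
    rw [mem_centralizer_singleton_iff]
    calc g⁻¹ * x.1 * g * (g⁻¹ * s * g) = g⁻¹ * (x.1 * s) * g := by group
      _ = g⁻¹ * (s * x.1) * g := by rw [h]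
      _ = g⁻¹ * s * g * (g⁻¹ * x.1 * g) := by group

/-- **`1 + |A| / c₁ + |A| / c₂ ≤ i(A)`** for a subgroup of odd index -/
theorem odd_count (hj : Odd A.index) {z s₁ s₂ : C} (hz : ∀ g, g * z = z * g) (oz : orderOf z = 2) (hzA : z ∈ A)
    (o1 : orderOf s₁ = 2) (o2 : orderOf s₂ = 2) (n1 : s₁ ≠ z) (n2 : s₂ ≠ z) (hn : ¬ IsConj s₁ s₂) {c₁ c₂ : ℕ}
    (k1 : Nat.card (Subgroup.centralizer ({s₁} : Set C)) ≤ c₁)
    (k2 : Nat.card (Subgroup.centralizer ({s₂} : Set C)) ≤ c₂) :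
    c₁ * c₂ + c₂ * Nat.card A + c₁ * Nat.card A ≤ c₁ * c₂ * {t : C | t ∈ A ∧ orderOf t = 2}.ncard := by
  obtain ⟨g, hg⟩ := exists_conj_mem hj o1
  obtain ⟨h, hh⟩ := exists_conj_mem hj o2
  have hord : ∀ (g s : C), orderOf s = 2 → orderOf (g⁻¹ * s * g) = 2 := by
    intro g s o
    rw [← o]
    have := orderOf_injective (MulAut.conj g⁻¹).toMonoidHom (MulAut.conj g⁻¹).injective s
    rwa [MulEquiv.coe_toMonoidHom, MulAut.conj_apply, inv_inv] at this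
  have hne : ∀ (g s : C), s ≠ z → g⁻¹ * s * g ≠ z := by
    intro g s n e
    apply n
    have h1 : s = g * z * g⁻¹ := by rw [← e]; group
    rw [h1, hz g, mul_assoc, mul_inv_cancel, mul_one]
  have h1 := class_bound (A := A) (s := g⁻¹ * s₁ * g) (c := c₁) (by rw [card_centralizer_conj]; exact k1)
  have h2 := class_bound (A := A) (s := h⁻¹ * s₂ * h) (c := c₂) (by rw [card_centralizer_conj]; exact k2)
  have hdis : Disjoint (cl A (g⁻¹ * s₁ * g)) (cl A (h⁻¹ * s₂ * h)) := by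
    rw [Set.disjoint_left]
    rintro _ ⟨a, -, rfl⟩ ⟨b, -, e⟩
    apply hn
    rw [isConj_iff]
    refine ⟨h * b⁻¹ * a * g⁻¹, ?_⟩
    calc h * b⁻¹ * a * g⁻¹ * s₁ * (h * b⁻¹ * a * g⁻¹)⁻¹ = h * b⁻¹ * (a * (g⁻¹ * s₁ * g) * a⁻¹) * b * h⁻¹ := by group
      _ = h * b⁻¹ * (b * (h⁻¹ * s₂ * h) * b⁻¹) * b * h⁻¹ := by rw [e]
      _ = s₂ := by group
  have h3 : 1 + (cl A (g⁻¹ * s₁ * g)).ncard + (cl A (h⁻¹ * s₂ * h)).ncard ≤
      {t : C | t ∈ A ∧ orderOf t = 2}.ncard := by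
    have h4 : insert z (cl A (g⁻¹ * s₁ * g) ∪ cl A (h⁻¹ * s₂ * h)) ⊆ {t : C | t ∈ A ∧ orderOf t = 2} :=
      Set.insert_subset ⟨hzA, oz⟩ (Set.union_subset (cl_order (hord g _ o1) hg) (cl_order (hord h _ o2) hh))
    have h5 := Set.ncard_le_ncard h4 (Set.toFinite _)
    rw [Set.ncard_insert_of_notMem (fun h6 => h6.elim (not_mem_cl hz (hne g _ n1)) (not_mem_cl hz (hne h _ n2)))
      (Set.toFinite _), Set.ncard_union_eq hdis (Set.toFinite _) (Set.toFinite _)] at h5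
    omega
  calc c₁ * c₂ + c₂ * Nat.card A + c₁ * Nat.card A ≤
      c₁ * c₂ + c₂ * (c₁ * (cl A (g⁻¹ * s₁ * g)).ncard) + c₁ * (c₂ * (cl A (h⁻¹ * s₂ * h)).ncard) := by
        have h6 := Nat.mul_le_mul_left c₂ h1
        have h7 := Nat.mul_le_mul_left c₁ h2
        omega
    _ = c₁ * c₂ * (1 + (cl A (g⁻¹ * s₁ * g)).ncard + (cl A (h⁻¹ * s₂ * h)).ncard) := by ring
    _ ≤ _ := Nat.mul_le_mul_left _ h3

end Cfsg.Agent.H411.IFU
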