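import Cfsg.Agent.H411.IFU.CardD
import Cfsg.Agent.H353.IF.TypeB

/-!
# S5719: the row `PSU_n(q)`, `q` odd, `n ≥ 5`: assembly (helper411)
-/

set_option autoImplicit false
set_option linter.unusedSectionVars false

namespace Cfsg.Agent.H411.IFU

open Matrix Subgroup Module Cfsg
open Cfsg.Agent.LieClassical.HermBasic Cfsg.Agent.LieClassical.HermSiegel
open Cfsg.Agent.ClassicalGeometry.PSUAutBasic Cfsg.Agent.ClassicalGeometry.HermOrtho
open Cfsg.Agent.H189.SN (ON Im phi Im_mulVec)
open Cfsg.Agent.H91.U (HForm SIso mem_SIso)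
open Cfsg.Agent.H450.UF (hform toIso toIso_apply)
open Cfsg.Agent.H77.Witt (formB formB_apply)
open Cfsg.Agent.H209.Fxy

section

variable {F : Type} [Field F] [Fintype F] {q n : ℕ}

/-- the two notions of fundamental elements agree -/
theorem fd_of_isF (hF : Fintype.card F = q ^ 2) (hodd : Odd q) {z : SU n F q} (hz : IsF (toIso hF z).1) : Fd z := by
  have h2 := two_ne_zero_of_odd hF hodd
  have hzz : ∀ v, act z (act z v) = v := by
    intro v
    rw [← toIso_apply hF, ← toIso_apply hF]
    exact LinearEquiv.congr_fun hz.1 v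
  let W : Submodule F (Fin n → F) := LinearMap.range (((toIso hF z).1 : (Fin n → F) →ₗ[F] (Fin n → F)) - 1)
  have hW1 : ∀ v ∈ W, act z v = -v := by
    rintro _ ⟨u, rfl⟩
    show act z ((toIso hF z).1 u - u) = -((toIso hF z).1 u - u)
    rw [toIso_apply, ← toIso_apply hF z (act z u - u), map_sub, toIso_apply, toIso_apply, hzz, neg_sub]
  have hW2 : ∀ v, (2 : F)⁻¹ • (v - act z v) ∈ W := by
    intro v
    refine ⟨-((2 : F)⁻¹ • v), ?_⟩
    show (toIso hF z).1 (-((2 : F)⁻¹ • v)) - -((2 : F)⁻¹ • v) = _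
    rw [map_neg, map_smul, toIso_apply, smul_sub]
    abel
  have hfix : ∀ x, act z x = -x → ∀ y, act z y = y → hermForm n F q x y = 0 := by
    intro x hx y hy
    have h3 := herm_act z x y
    rw [hx, hy, herm_neg_left] at h3
    have h4 : (2 : F) * hermForm n F q x y = 0 := by linear_combination -h3
    exact (mul_eq_zero.1 h4).resolve_left h2
  have hdec : ∀ v : Fin n → F, v = (2 : F)⁻¹ • (v + act z v) + (2 : F)⁻¹ • (v - act z v) := by
    intro v
    rw [← smul_add, show v + act z v + (v - act z v) = (2 : F) • v by rw [two_smul]; abel, smul_smul,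
      inv_mul_cancel₀ h2, one_smul]
  have hfx : ∀ v, act z ((2 : F)⁻¹ • (v + act z v)) = (2 : F)⁻¹ • (v + act z v) := by
    intro v
    rw [← toIso_apply hF, map_smul, map_add, toIso_apply, toIso_apply, hzz, add_comm]
  have hnd : ∀ u ∈ W, (∀ v ∈ W, hermForm n F q u v = 0) → u = 0 := by
    intro u hu huv
    apply (hform hF n).eq_zero
    intro y
    rw [formB_apply]
    apply herm_eq_zero_swap hF
    rw [hdec y, herm_add_right hF, huv _ (hW2 y), hfix u (hW1 u hu) _ (hfx y), add_zero]
  obtain ⟨b, hbW, hb⟩ := exists_orthonormal hF W hnd hz.2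
  refine ⟨b, hb, ?_, ?_⟩
  · intro c
    apply hW1
    rw [Im_mulVec]
    exact Submodule.sum_mem _ fun i _ => W.smul_mem _ (hbW i)
  · intro v hv
    have h3 : ∀ i, hermForm n F q ((2 : F)⁻¹ • (v - act z v)) (b i) = 0 := by
      intro i
      rw [herm_smul_left, herm_sub_left, hv i]
      have h4 := herm_act z (act z v) (b i)
      rw [hzz, hW1 _ (hbW i)] at h4
      rw [← h4, show -(b i) = (-1 : F) • b i by rw [neg_smul, one_smul], herm_smul_right, hv i, mul_zero, sub_zero,
        mul_zero]
    have h4 := eq_sum_of_orthonormal W (by rw [Fintype.card_fin]; exact hz.2) hbW hb (hW2 v)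
    have h5 : (2 : F)⁻¹ • (v - act z v) = 0 := by
      rw [h4]
      refine Finset.sum_eq_zero fun i _ => ?_
      rw [h3 i, zero_smul]
    have h6 := (smul_eq_zero.1 h5).resolve_left (inv_ne_zero h2)
    exact (sub_eq_zero.1 h6).symm

theorem scalar_central (hF : Fintype.card F = q ^ 2) {x : SU n F q} {a : F} (h : ∀ v, (toIso hF x).1 v = a • v) :
    x ∈ Subgroup.center (SU n F q) := by
  rw [Subgroup.mem_center_iff]
  intro y
  apply (toIso (n := n) hF).injective
  apply Subtype.ext
  apply LinearEquiv.ext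
  intro v
  rw [map_mul, map_mul]
  show (toIso hF y).1 ((toIso hF x).1 v) = (toIso hF x).1 ((toIso hF y).1 v)
  rw [h, h, map_smul]

/-- the last piece (helper346) -/
def FinalSU (F : Type) [Field F] [Fintype F] (q n : ℕ) : Prop :=
  ∀ (A : Subgroup (PSU n F q)) (Γ : Subgroup (MulAut (PSU n F q))), IF A Γ →
    ∀ z : SU n F q, Fd z → (QuotientGroup.mk z : PSU n F q) ∈ A → False

/-- transport of an inequality through an isomorphism -/
theorem transport {G H : Type*} [Group G] [Group H] (e : G ≃* H) (X : Subgroup G) (x : G)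
    (h : X.relIndex (centralizer ({x} : Set G)) ^ 5 * Nat.card (centralizer ({x} : Set G)) < Nat.card G) :
    (X.map (e : G →* H)).relIndex (centralizer ({e x} : Set H)) ^ 5 * Nat.card (centralizer ({e x} : Set H)) <
      Nat.card H := by
  have h1 : centralizer ({e x} : Set H) = (centralizer ({x} : Set G)).map (e : G →* H) := by
    ext y
    obtain ⟨y, rfl⟩ := e.surjective y
    rw [mem_centralizer_iff, Subgroup.mem_map]
    constructor
    · intro h2
      refine ⟨y, ?_, rfl⟩
      rw [mem_centralizer_iff]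
      intro w hw
      have hw' : w = x := hw
      rw [hw']
      apply e.injective
      rw [map_mul, map_mul]
      exact h2 _ rfl
    · rintro ⟨w, hw, hwy⟩
      have hwy' : w = y := e.injective hwy
      rw [hwy', mem_centralizer_iff] at hw
      intro v hv
      have hv' : v = e x := hv
      rw [hv', ← map_mul, ← map_mul, hw x rfl]
  have hinj : Function.Injective (e : G →* H) := e.injective
  have h2 : (X.map (e : G →* H)).relIndex ((centralizer ({x} : Set G)).map (e : G →* H)) =
      X.relIndex (centralizer ({x} : Set G)) := by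
    rw [← relIndex_comap, comap_map_eq_self_of_injective hinj]
  rw [h1, h2, ← Nat.card_congr ((centralizer ({x} : Set G)).equivMapOfInjective _ hinj).toEquiv,
    ← Nat.card_congr e.toEquiv]
  exact h

theorem psu_odd_of (hFT : ∀ (D : Type) [Group D] [Finite D], Odd (Nat.card D) → Group.IsSolvable D)
    (hF : Fintype.card F = q ^ 2) (hodd : Odd q) (hn : 5 ≤ n) (hs : IsSimpleGroup (PSU n F q))
    (hphi : PhiDec F q n hF) (hlast : FinalSU F q n) : KillE (PSU n F q) := by
  rintro A Γ h ⟨t, htA, hto⟩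
  have hfin : Finite (PSU n F q) := Quotient.finite _
  have hna : ∃ a b : PSU n F q, a * b ≠ b * a := by
    by_contra hcon
    push Not at hcon
    exact Cfsg.Agent.CpAut.Fix.not_comm_quot (H := SU n F q) (hs := hs) ⟨⟨hcon⟩⟩
  obtain ⟨g, rfl, μ, hμ, hg⟩ := lift_cases hF hodd (by omega) hto
  have eng : ∀ x : SU n F q, pr n F q x ∈ A → pr n F q x ≠ 1 → pr n F q (x * x) = 1 →
      (A.comap (pr n F q)).relIndex (centralizer ({x} : Set (SU n F q))) ^ 5 *
        Nat.card (centralizer ({x} : Set (SU n F q))) < Nat.card (SU n F q) := by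
    intro x h1 h2 h3
    exact Cfsg.Agent.H847.IF.lift_E2_card h hna (pr n F q) pr_surjective h1 h2 h3 fun b hb => by
      rw [(mem_centralizer_iff.1 hb x rfl)]
  have hnf : ∀ z ∈ A.comap (pr n F q), ¬ IsF (toIso hF z).1 := fun z hz hzF =>
    hlast A Γ h z (fd_of_isF hF hodd hzF) hz
  have key : ∀ (x : SU n F q) (μ : F), μ ^ (q + 1) = 1 → (∀ v, act x (act x v) = (μ * μ) • v) → pr n F q x ∈ A →
      pr n F q x ≠ 1 → pr n F q (x * x) = 1 → False := by
    intro x μ hμ hx h1 h2 h3
    refine typeA hF hodd hn hphi (X := (A.comap (pr n F q)).map ((toIso (n := n) hF : SU n F q ≃* _) : SU n F q →* _))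
      ?_ (toIso hF x) hμ ?_ ?_ ?_
    · rintro _ ⟨z, hz, rfl⟩
      exact hnf z hz
    · intro v
      rw [toIso_apply, toIso_apply]
      exact hx v
    · intro a ha
      exact h2 (pr_eq_one_iff.2 (scalar_central hF ha))
    · exact transport (toIso (n := n) hF) _ x (eng x h1 h2 h3)
  have hg1 : pr n F q g ≠ 1 := by
    intro e
    rw [e, orderOf_one] at hto
    omega
  have hg2 : pr n F q (g * g) = 1 := by
    rw [map_mul, ← pow_two]
    exact orderOf_dvd_iff_pow_eq_one.1 (by rw [hto])
  rcases hμ with hμ | hμ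
  · exact key g μ hμ hg htA hg1 hg2
  · obtain ⟨z, hzA, hzz, hzc⟩ := Cfsg.Agent.H353.IF.typeB hFT hF hodd hn (A.comap (pr n F q)) g μ hμ hg
      (eng g htA hg1 hg2)
    refine key z 1 (one_pow _) ?_ hzA (fun e => hzc (pr_eq_one_iff.1 e)) (by rw [hzz, map_one])
    intro v
    rw [← act_mul, hzz, act_one, mul_one, one_smul]

end

end Cfsg.Agent.H411.IFU
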