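import Cfsg.Agent.H411.IFU.Card
import Cfsg.Agent.H411.IFU.Defs
import Cfsg.Agent.H450.UF.Model

/-!
# S5719, `PSU_n(q)`, `q` odd: lifts of involutions and involutions with nondegenerate eigenspaces (helper411)
-/

set_option autoImplicit false
set_option linter.unusedSectionVars false

namespace Cfsg.Agent.H411.IFU

open Matrix Subgroup Module Cfsg
open Cfsg.Agent.LieClassical.HermBasic Cfsg.Agent.LieClassical.HermSiegel
open Cfsg.Agent.ClassicalGeometry.PSUAutBasic
open Cfsg.Agent.H91.U (HForm SIso)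
open Cfsg.Agent.H450.UF (hform toIso)
open Cfsg.Agent.H77.Witt (formB formB_apply)

section

variable {F : Type} [Field F] [Fintype F] {q n : ℕ}

theorem two_ne_zero_of_odd (hF : Fintype.card F = q ^ 2) (hodd : Odd q) : (2 : F) ≠ 0 := by
  apply Ring.two_ne_zero
  intro h
  have h1 := FiniteField.even_card_of_char_two h
  rw [hF] at h1
  exact (Nat.not_odd_iff_even.2 (Nat.even_iff.2 h1)) (hodd.pow)

/-- lifts of involutions -/
theorem lift_cases (hF : Fintype.card F = q ^ 2) (hodd : Odd q) (hn : 3 ≤ n) {t : PSU n F q} (ht : orderOf t = 2) :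
    ∃ g : SU n F q, pr n F q g = t ∧ ∃ μ : F, (μ ^ (q + 1) = 1 ∨ μ ^ (q + 1) = -1) ∧
      ∀ v, act g (act g v) = (μ * μ) • v := by
  obtain ⟨g, rfl⟩ := pr_surjective t
  have h1 : pr n F q (g * g) = 1 := by
    rw [map_mul, ← pow_two]
    exact orderOf_dvd_iff_pow_eq_one.1 (by rw [ht])
  rw [pr_eq_one_iff] at h1
  obtain ⟨c, hc0, hc1, hc⟩ := exists_scalar_of_mem_center hF hn h1
  have hc2 : c ^ (q + 1) = 1 := by rw [pow_succ, mul_comm]; exact hc1
  have h2 := two_ne_zero_of_odd hF hodd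
  have hchar : ringChar F ≠ 2 := by
    intro h
    apply h2
    have h3 := ringChar.spec F 2
    exact_mod_cast h3.2 (by rw [h])
  have hsq : IsSquare c := by
    rw [FiniteField.isSquare_iff hchar hc0, hF]
    obtain ⟨j, rfl⟩ := hodd
    have h3 : (2 * j + 1) ^ 2 / 2 = (2 * j + 1 + 1) * j := by
      have : (2 * j + 1) ^ 2 = 2 * ((2 * j + 1 + 1) * j) + 1 := by ring
      omega
    rw [h3, pow_mul, hc2, one_pow]
  obtain ⟨μ, rfl⟩ := hsq
  refine ⟨g, rfl, μ, ?_, fun v => by rw [← act_mul]; exact hc v⟩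
  have h3 : μ ^ (q + 1) * μ ^ (q + 1) = 1 := by rw [← mul_pow]; exact hc2
  exact mul_self_eq_one_iff.1 h3

/-- `z` is fundamental (helper27's `IsFund`) -/
def IsF {V : Type*} [AddCommGroup V] [Module F V] (z : V ≃ₗ[F] V) : Prop :=
  z * z = 1 ∧ finrank F (LinearMap.range ((z : V →ₗ[F] V) - 1)) = 2

/-- (PHI) for a decomposition, the form used here -/
def PhiDec (F : Type) [Field F] [Fintype F] (q n : ℕ) (hF : Fintype.card F = q ^ 2) : Prop :=
  ∀ (W : Submodule F (Fin n → F)), (∀ x ∈ W, (∀ y ∈ W, formB hF n x y = 0) → x = 0) → ∀ k M : ℕ, finrank F W = k →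
    k + M = n → 1 ≤ k → 1 ≤ M → ∀ X : Subgroup (SIso (formB hF n)), (∀ z ∈ X, ¬ IsF z.1) →
    ∃ D : Subgroup (SIso (formB hF n)), (∀ g ∈ D, ∀ v ∈ W, g.1 v ∈ W) ∧
      (∀ g ∈ D, ∀ v, (∀ w ∈ W, formB hF n v w = 0) → ∀ w ∈ W, formB hF n (g.1 v) w = 0) ∧
      q ^ (k ^ 2 + M ^ 2) ≤ (q + 1) ^ 2 * Nat.card D ∧ q ^ (k ^ 2 / 4 + M ^ 2 / 4) ≤ X.relIndex D

/-- **involutions with nondegenerate eigenspaces** -/
theorem typeA (hF : Fintype.card F = q ^ 2) (hodd : Odd q) (hn : 5 ≤ n) (hphi : PhiDec F q n hF)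
    {X : Subgroup (SIso (formB hF n))} (hnf : ∀ z ∈ X, ¬ IsF z.1) (g : SIso (formB hF n)) {μ : F}
    (hμ : μ ^ (q + 1) = 1) (hg : ∀ v, g.1 (g.1 v) = (μ * μ) • v) (hns : ∀ a : F, ¬ ∀ v, g.1 v = a • v)
    (hX : X.relIndex (centralizer ({g} : Set (SIso (formB hF n)))) ^ 5 *
      Nat.card (centralizer ({g} : Set (SIso (formB hF n)))) < Nat.card (SIso (formB hF n))) : False := by
  have hfin : Finite (SIso (formB hF n)) := Finite.of_equiv _ (toIso (n := n) hF).toEquiv
  have h2 := two_ne_zero_of_odd hF hodd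
  have hB := hform hF n
  have hμ0 : μ ≠ 0 := by
    rintro rfl
    rw [zero_pow (by omega)] at hμ
    exact zero_ne_one hμ
  have hμq : μ ^ q * μ = 1 := by rw [← pow_succ]; exact hμ
  let W : Submodule F (Fin n → F) :=
    { carrier := {v | g.1 v = μ • v}
      add_mem' := by
        intro a b ha hb
        show g.1 (a + b) = μ • (a + b)
        rw [map_add, show g.1 a = μ • a from ha, show g.1 b = μ • b from hb, smul_add]
      zero_mem' := by show g.1 0 = μ • 0; rw [map_zero, smul_zero]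
      smul_mem' := by
        intro c a ha
        show g.1 (c • a) = μ • (c • a)
        rw [map_smul, show g.1 a = μ • a from ha, smul_comm] }
  have hW : ∀ v, v ∈ W ↔ g.1 v = μ • v := fun v => Iff.rfl
  -- the two eigenspaces are orthogonal
  have horth : ∀ v w, g.1 v = -(μ • v) → w ∈ W → formB hF n v w = 0 := by
    intro v w hv hw
    have h3 := g.2.2 v w
    rw [hv, (hW w).1 hw, map_neg, LinearMap.neg_apply, Cfsg.Agent.H450.UF.smul_left, Cfsg.Agent.H450.UF.smul_right] at h3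
    have h4 : ((conj hF : F ≃+* F) : F →+* F) μ = μ ^ q := rfl
    have h5 : -(((conj hF : F ≃+* F) : F →+* F) μ * (μ * formB hF n v w)) = -formB hF n v w := by
      rw [h4, ← mul_assoc, hμq, one_mul]
    rw [h5] at h3
    have h6 : (2 : F) * formB hF n v w = 0 := by linear_combination -h3
    exact (mul_eq_zero.1 h6).resolve_left h2
  have hdec : ∀ v, ∃ w u, w ∈ W ∧ g.1 u = -(μ • u) ∧ v = w + u := by
    intro v
    refine ⟨(2 : F)⁻¹ • (v + μ⁻¹ • g.1 v), (2 : F)⁻¹ • (v - μ⁻¹ • g.1 v), ?_, ?_, ?_⟩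
    · rw [hW, map_smul, map_add, map_smul, hg, smul_comm μ]
      congr 1
      rw [smul_add, smul_smul, smul_smul, ← mul_assoc, inv_mul_cancel₀ hμ0, one_mul, mul_inv_cancel₀ hμ0, one_smul,
        add_comm]
    · rw [map_smul, map_sub, map_smul, hg, smul_comm μ, ← smul_neg]
      congr 1
      rw [smul_sub, smul_smul, smul_smul, ← mul_assoc, inv_mul_cancel₀ hμ0, one_mul, mul_inv_cancel₀ hμ0, one_smul,
        neg_sub]
    · rw [← smul_add, show v + μ⁻¹ • g.1 v + (v - μ⁻¹ • g.1 v) = (2 : F) • v by rw [two_smul]; abel, smul_smul,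
        inv_mul_cancel₀ h2, one_smul]
  have hnd : ∀ x ∈ W, (∀ y ∈ W, formB hF n x y = 0) → x = 0 := by
    intro x hx hxy
    apply hB.eq_zero
    intro y
    obtain ⟨w, u, hw, hu, rfl⟩ := hdec y
    rw [map_add, hxy w hw, hB.swap_zero (horth u x hu hx), add_zero]
  have hperp : ∀ v, (∀ w ∈ W, formB hF n v w = 0) → g.1 v = -(μ • v) := by
    intro v hv
    obtain ⟨w, u, hw, hu, rfl⟩ := hdec v
    have hw0 : w = 0 := by
      apply hnd w hw
      intro y hy
      have h3 := hv y hy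
      rw [map_add, LinearMap.add_apply, horth u y hu hy, add_zero] at h3
      exact h3
    rw [hw0, zero_add]
    exact hu
  have hkn : finrank F W ≤ n := by
    have := Submodule.finrank_le W
    rwa [finrank_fin_fun] at this
  obtain ⟨M, hM⟩ := Nat.exists_eq_add_of_le hkn
  have hk1 : 1 ≤ finrank F W := by
    by_contra h
    have h3 : finrank F W = 0 := by omega
    rw [Submodule.finrank_eq_zero] at h3
    apply hns (-μ)
    intro v
    rw [neg_smul]
    apply hperp
    intro w hw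
    rw [h3, Submodule.mem_bot] at hw
    rw [hw, map_zero]
  have hM1 : 1 ≤ M := by
    by_contra h
    have h3 : finrank F W = finrank F (Fin n → F) := by rw [finrank_fin_fun]; omega
    have h4 := Submodule.eq_top_of_finrank_eq h3
    apply hns μ
    intro v
    rw [← hW, h4]
    exact Submodule.mem_top
  obtain ⟨D, hD1, hD2, hD3, hD4⟩ := hphi W hnd _ M rfl hM.symm hk1 hM1 X hnf
  have hDC : D ≤ centralizer ({g} : Set (SIso (formB hF n))) := by
    intro x hx
    rw [mem_centralizer_iff]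
    intro y hy
    have hyg : y = g := hy
    rw [hyg]
    apply Subtype.ext
    apply LinearEquiv.ext
    intro v
    show g.1 (x.1 v) = x.1 (g.1 v)
    obtain ⟨w, u, hw, hu, rfl⟩ := hdec v
    have h3 : g.1 (x.1 w) = μ • x.1 w := (hW _).1 (hD1 x hx w hw)
    have h4 : g.1 (x.1 u) = -(μ • x.1 u) := hperp _ (hD2 x hx u (fun w hw => horth u w hu hw))
    rw [map_add, map_add, map_add, map_add, h3, h4, (hW w).1 hw, hu, map_smul, map_neg, map_smul]
  have hq3 : 3 ≤ q := by
    have h3 := two_le_q hF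
    obtain ⟨j, rfl⟩ := hodd
    omega
  refine numbers (q := q) (k := finrank F W) (M := M) (P := X.relIndex D) (G := Nat.card (SIso (formB hF n)))
    (C := Nat.card D) hq3 hk1 hM1 (by omega) hD4 hD3 ?_ ?_
  · rw [← Nat.card_congr (toIso (n := n) hF).toEquiv, ← hM]
    exact card_SU_le hF (by omega)
  · refine lt_of_le_of_lt ?_ hX
    refine Nat.mul_le_mul (Nat.pow_le_pow_left ?_ 5) (Nat.le_of_dvd Nat.card_pos (Subgroup.card_dvd_of_le hDC))
    exact Subgroup.relIndex_le_of_le_right hDC (Subgroup.index_ne_zero_of_finite)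

end

end Cfsg.Agent.H411.IFU
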